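import Mathlib
import Cfsg.Agent.H308.CA.Stmts

/-!
# S3852, type A block, (DET) (helper35)

Ring homomorphisms of matrix rings over finite fields and the determinant.
-/

set_option autoImplicit false

namespace Cfsg.Agent.H35.CA

open Matrix Cfsg.Agent.H308.CA

section

variable {F : Type} [Field F] [Finite F] {ι : Type} [Fintype ι] [DecidableEq ι] [Nonempty ι]

omit [Finite F] in
theorem scalar_of_central {a : Matrix ι ι F} (h : ∀ b, a * b = b * a) : ∃ c : F, a = Matrix.scalar ι c := by
  have h1 : a ∈ Set.center (Matrix ι ι F) := by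
    rw [Semigroup.mem_center_iff]
    intro b
    exact (h b).symm
  rw [Matrix.center_eq_range] at h1
  obtain ⟨c, hc⟩ := h1
  exact ⟨c, hc.symm⟩

/-- the determinant of the image under a ring endomorphism -/
theorem exists_det (ψ : Matrix ι ι F →+* Matrix ι ι F) : ∃ σ : F →+* F, ∀ a, (ψ a).det = σ a.det := by
  classical
  have hinj : Function.Injective ψ := RingHom.injective ψ
  have hbij : Function.Bijective ψ := Finite.injective_iff_bijective.1 hinj
  obtain ⟨i0⟩ := ‹Nonempty ι›
  have hs : ∀ c : F, ψ (Matrix.scalar ι c) = Matrix.scalar ι (ψ (Matrix.scalar ι c) i0 i0) := by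
    intro c
    obtain ⟨d, hd⟩ := scalar_of_central (a := ψ (Matrix.scalar ι c)) (fun b => by
      obtain ⟨b', rfl⟩ := hbij.2 b
      rw [← map_mul, ← map_mul, (Matrix.scalar_commute c (fun r => Commute.all c r) b').eq])
    rw [hd]
    congr 1
    simp
  let σ : F →+* F :=
    { toFun := fun c => ψ (Matrix.scalar ι c) i0 i0
      map_one' := by simp
      map_mul' := fun x y => by
        rw [map_mul, map_mul, hs x, hs y]
        simp
      map_zero' := by simp
      map_add' := fun x y => by
        rw [map_add, map_add]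
        simp }
  have hσ : ∀ c, ψ (Matrix.scalar ι c) = Matrix.scalar ι (σ c) := hs
  let τ : F ≃+* F := RingEquiv.ofBijective σ (Finite.injective_iff_bijective.1 σ.injective)
  have hτ : ∀ c, τ c = σ c := fun c => rfl
  let Ψ : Matrix ι ι F ≃+* Matrix ι ι F := (RingEquiv.ofBijective ψ hbij).trans τ.symm.mapMatrix
  have hΨ : ∀ a, Ψ a = (ψ a).map τ.symm := fun a => rfl
  let f : Matrix ι ι F ≃ₐ[F] Matrix ι ι F := AlgEquiv.ofRingEquiv (f := Ψ) (by
    intro c
    have h1 : (algebraMap F (Matrix ι ι F)) c = Matrix.scalar ι c := rfl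
    rw [h1, hΨ, hσ, ← hτ]
    ext i j
    by_cases hij : i = j
    · subst hij; simp
    · simp [hij])
  let g : Module.End F (ι → F) ≃ₐ[F] Module.End F (ι → F) :=
    Matrix.toLinAlgEquiv'.symm.trans (f.trans Matrix.toLinAlgEquiv')
  obtain ⟨T, hT⟩ := AlgEquiv.eq_linearEquivConjAlgEquiv g
  refine ⟨σ, fun a => ?_⟩
  have h1 : g (Matrix.toLin' a) = Matrix.toLin' (f a) := by
    show Matrix.toLinAlgEquiv' (f (Matrix.toLinAlgEquiv'.symm (Matrix.toLin' a))) = _
    have : Matrix.toLinAlgEquiv'.symm (Matrix.toLin' a) = a := Matrix.toLinAlgEquiv'.symm_apply_apply a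
    rw [this]
    rfl
  have h2 : Matrix.toLin' (f a) = (T : (ι → F) →ₗ[F] (ι → F)) ∘ₗ Matrix.toLin' a ∘ₗ (T.symm : (ι → F) →ₗ[F] (ι → F)) := by
    rw [← h1, hT]
    rfl
  have h3 : (f a).det = a.det := by
    rw [← LinearMap.det_toLin', h2, LinearMap.det_conj, LinearMap.det_toLin']
  have h4 : (f a).det = τ.symm (ψ a).det := by
    show ((ψ a).map τ.symm).det = _
    exact (RingEquiv.map_det τ.symm (ψ a)).symm
  rw [← hτ, ← h3, h4, RingEquiv.apply_symm_apply]

/-- the first and the second component -/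
def fstR (F : Type) [Field F] : Ex F →+* F := RingHom.fst F F

def sndR (F : Type) [Field F] : Ex F →+* F := RingHom.snd F F

/-- the diagonal embedding -/
def dia (F : Type) [Field F] : F →+* Ex F := (RingHom.id F).prod (RingHom.id F)

theorem det_of_surj (ψ : Matrix ι ι (Ex F) →+* Matrix ι ι F) (hψ : Function.Surjective ψ) (a : Matrix ι ι (Ex F))
    (ha : a.det = 1) : (ψ a).det = 1 := by
  classical
  let e1 : Ex F := ((1, 0) : F × F)
  let e2 : Ex F := ((0, 1) : F × F)
  have he11 : e1 * e1 = e1 := by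
    show ((1 * 1, 0 * 0) : F × F) = (1, 0)
    rw [mul_one, mul_zero]
  have he12 : e1 + e2 = 1 := by
    show ((1 + 0, 0 + 1) : F × F) = (1, 1)
    rw [add_zero, zero_add]
  have hsc : ∀ (c : Ex F) (b : Matrix ι ι (Ex F)), Matrix.scalar ι c * b = b * Matrix.scalar ι c := fun c b =>
    (Matrix.scalar_commute c (fun r => Commute.all c r) b).eq
  -- the image of `e1`
  obtain ⟨d, hd⟩ := scalar_of_central (a := ψ (Matrix.scalar ι e1)) (fun b => by
    obtain ⟨b', rfl⟩ := hψ b
    rw [← map_mul, ← map_mul, hsc])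
  have hdd : d * d = d := by
    have h1 : ψ (Matrix.scalar ι e1) * ψ (Matrix.scalar ι e1) = ψ (Matrix.scalar ι e1) := by
      rw [← map_mul, ← map_mul, he11]
    rw [hd, ← map_mul] at h1
    exact Matrix.scalar_inj.1 h1
  -- the two cases
  have key : ∀ (c : Ex F) (π : Ex F →+* F), (∀ x : Ex F, c * x = c * dia F (π x)) → ψ (Matrix.scalar ι c) = 1 →
      (ψ a).det = 1 := by
    intro c π hc h1
    obtain ⟨σ, hσ⟩ := exists_det (ψ.comp (dia F).mapMatrix : Matrix ι ι F →+* Matrix ι ι F)
    have h2 : Matrix.scalar ι c * a = Matrix.scalar ι c * (dia F).mapMatrix (π.mapMatrix a) := by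
      ext i j : 2
      rw [Matrix.scalar_apply, Matrix.diagonal_mul, Matrix.diagonal_mul]
      exact hc (a i j)
    have h3 : ψ a = (ψ.comp (dia F).mapMatrix) (π.mapMatrix a) := by
      calc ψ a = ψ (Matrix.scalar ι c) * ψ a := by rw [h1, one_mul]
        _ = ψ (Matrix.scalar ι c * (dia F).mapMatrix (π.mapMatrix a)) := by rw [← map_mul, h2]
        _ = ψ ((dia F).mapMatrix (π.mapMatrix a)) := by rw [map_mul, h1, one_mul]
        _ = _ := rfl
    rw [h3, hσ, ← RingHom.map_det, ha, map_one, map_one]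
  have h0 : d = 0 ∨ d = 1 := by
    have : d * (d - 1) = 0 := by rw [mul_sub, hdd, mul_one, sub_self]
    rcases mul_eq_zero.1 this with h | h
    · exact Or.inl h
    · exact Or.inr (sub_eq_zero.1 h)
  rcases h0 with h0 | h0
  · refine key e2 (sndR F) (fun x => ?_) ?_
    · show ((0 * x.1, 1 * x.2) : F × F) = (0 * x.2, 1 * x.2)
      rw [zero_mul, zero_mul]
    · have h1 : ψ (Matrix.scalar ι (e1 + e2)) = 1 := by rw [he12, map_one, map_one]
      rw [map_add, map_add, hd, h0, map_zero, zero_add] at h1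
      exact h1
  · refine key e1 (fstR F) (fun x => ?_) ?_
    · show ((1 * x.1, 0 * x.2) : F × F) = (1 * x.1, 0 * x.1)
      rw [zero_mul, zero_mul]
    · rw [hd, h0, map_one]

theorem map_surj {R S : Type} [CommRing R] [CommRing S] (f : R →+* S) (hf : Function.Surjective f) :
    Function.Surjective (f.mapMatrix : Matrix ι ι R →+* Matrix ι ι S) := by
  intro a
  choose g hg using hf
  exact ⟨a.map g, by ext i j; exact hg _⟩

end

/-- **(DET)** -/
theorem det_st {E : Type} [CommRing E] [StarRing E] (h : Gd E) : DetSt E := by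
  intro ι _ _ θ _ u
  rcases isEmpty_or_nonempty ι with hι | hι
  · exact Matrix.det_isEmpty
  cases h with
  | lin F i _ =>
    have hd : (mt u).det = 1 := mt_det u
    have h1 := det_of_surj ((fstR F).mapMatrix.comp (θ : Matrix ι ι (Ex F) →+* Matrix ι ι (Ex F)))
      ((map_surj (fstR F) Prod.fst_surjective).comp θ.surjective) (mt u) hd
    have h2 := det_of_surj ((sndR F).mapMatrix.comp (θ : Matrix ι ι (Ex F) →+* Matrix ι ι (Ex F)))
      ((map_surj (sndR F) Prod.snd_surjective).comp θ.surjective) (mt u) hd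
    have h3 : (fstR F) (θ (mt u)).det = 1 := by
      rw [RingHom.map_det]
      exact h1
    have h4 : (sndR F) (θ (mt u)).det = 1 := by
      rw [RingHom.map_det]
      exact h2
    exact Prod.ext h3 h4
  | uni F i s _ hs =>
    obtain ⟨σ, hσ⟩ := exists_det (θ : Matrix ι ι E →+* Matrix ι ι E)
    have h1 := hσ (mt u)
    rw [mt_det, map_one] at h1
    exact h1

end Cfsg.Agent.H35.CA
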