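import Cfsg.Agent.H308.CA.Basic

/-!
# Reduction to corners and to centralisers (S3852, [CA13]; helper35)

`exists_red`: an injective star homomorphism `φ` (not necessarily unital) of matrix rings whose image is invariant under
`K` gives a `TA` of the smaller ring, for a group containing `K`.  `exists_corner`: the corner of a symmetric idempotent.
-/

set_option autoImplicit false
set_option linter.unusedSectionVars false

namespace Cfsg.Agent.H35.CA

open Matrix Cfsg.Agent.H308.CA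

universe u

local notation "μ" => Cfsg.Agent.H308.CA.mt

section emb

variable {ι ι' : Type} [Fintype ι] [DecidableEq ι] [Fintype ι'] [DecidableEq ι'] {E E' : Type} [CommRing E]
  [StarRing E] [CommRing E'] [StarRing E']

theorem emb_unit (φ : Matrix ι' ι' E' →ₙ+* Matrix ι ι E) (hst : ∀ a, φ (star a) = star (φ a)) (u : SU ι' E') :
    star (φ (μ u) + (1 - φ 1)) * (φ (μ u) + (1 - φ 1)) = 1 := by
  have h1 : star (φ 1) = φ 1 := by rw [← hst, star_one]
  have e1 : φ (star (μ u)) * φ (μ u) = φ 1 := by rw [← map_mul, star_mt_mul]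
  have e2 : φ (star (μ u)) * (1 - φ 1) = 0 := by rw [mul_sub, mul_one, ← map_mul, mul_one, sub_self]
  have e3 : (1 - φ 1) * φ (μ u) = 0 := by rw [sub_mul, one_mul, ← map_mul, one_mul, sub_self]
  have e4 : (1 - φ 1) * (1 - φ 1) = 1 - φ 1 := by
    rw [mul_sub, mul_one, sub_mul, one_mul, ← map_mul, one_mul, sub_self, sub_zero]
  rw [star_add, star_sub, star_one, h1, ← hst, add_mul, mul_add, mul_add, e1, e2, e3, e4]
  abel

/-- the embedding of the smaller unitary group -/
def emb (φ : Matrix ι' ι' E' →ₙ+* Matrix ι ι E) (hst : ∀ a, φ (star a) = star (φ a))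
    (hdet : ∀ u : SU ι' E', (φ (μ u) + (1 - φ 1)).det = 1) : SU ι' E' →* SU ι E where
  toFun u := mkSU (φ (μ u) + (1 - φ 1)) (emb_unit φ hst u) (hdet u)
  map_one' := mt_injective (by rw [mt_mkSU, map_one μ, map_one μ, add_sub_cancel])
  map_mul' u v := mt_injective (by
    have e2 : φ (μ u) * (1 - φ 1) = 0 := by rw [mul_sub, mul_one, ← map_mul, mul_one, sub_self]
    have e3 : (1 - φ 1) * φ (μ v) = 0 := by rw [sub_mul, one_mul, ← map_mul, one_mul, sub_self]
    have e4 : (1 - φ 1) * (1 - φ 1) = 1 - φ 1 := by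
      rw [mul_sub, mul_one, sub_mul, one_mul, ← map_mul, one_mul, sub_self, sub_zero]
    rw [map_mul μ (mkSU _ _ _), mt_mkSU, mt_mkSU, mt_mkSU, map_mul μ u v, add_mul, mul_add, mul_add, e2, e3, e4,
      map_mul]
    abel)

theorem mt_emb (φ : Matrix ι' ι' E' →ₙ+* Matrix ι ι E) (hst : ∀ a, φ (star a) = star (φ a))
    (hdet : ∀ u : SU ι' E', (φ (μ u) + (1 - φ 1)).det = 1) (u : SU ι' E') :
    μ (emb φ hst hdet u) = φ (μ u) + (1 - φ 1) := rfl

end emb

/-- the elements leaving the image of `φ` invariant -/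
def inv {Γ : Type u} [Group Γ] {ι ι' : Type} [Fintype ι] [DecidableEq ι] [Fintype ι'] [DecidableEq ι'] {E E' : Type}
    [CommRing E] [StarRing E] [CommRing E'] [StarRing E'] (T : TA Γ ι E) (φ : Matrix ι' ι' E' →ₙ+* Matrix ι ι E) :
    Subgroup Γ where
  carrier := {g | (∀ a, ∃ b, T.ρ g (φ a) = φ b) ∧ ∀ a, ∃ b, T.ρ g⁻¹ (φ a) = φ b}
  one_mem' := ⟨fun a => ⟨a, T.ρ_one _⟩, fun a => ⟨a, by rw [inv_one]; exact T.ρ_one _⟩⟩
  mul_mem' := by
    rintro g h ⟨g1, g2⟩ ⟨h1, h2⟩
    refine ⟨fun a => ?_, fun a => ?_⟩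
    · obtain ⟨b, hb⟩ := h1 a
      obtain ⟨c, hc⟩ := g1 b
      exact ⟨c, by rw [T.ρ_mul, hb, hc]⟩
    · obtain ⟨b, hb⟩ := g2 a
      obtain ⟨c, hc⟩ := h2 b
      exact ⟨c, by rw [_root_.mul_inv_rev, T.ρ_mul, hb, hc]⟩
  inv_mem' := by
    rintro g ⟨g1, g2⟩
    exact ⟨g2, by rw [inv_inv]; exact g1⟩

section red

variable {Γ : Type u} [Group Γ] {ι ι' : Type} [Fintype ι] [DecidableEq ι] [Fintype ι'] [DecidableEq ι'] {E E' : Type}
    [CommRing E] [StarRing E] [CommRing E'] [StarRing E']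

/-- **[CA13] (a)** -/
theorem exists_red (T : TA Γ ι E) {K : Subgroup Γ} (φ : Matrix ι' ι' E' →ₙ+* Matrix ι ι E)
    (hinj : Function.Injective φ) (hst : ∀ a, φ (star a) = star (φ a))
    (hdet : ∀ u : SU ι' E', (φ (μ u) + (1 - φ 1)).det = 1) (hK : ∀ k ∈ K, ∀ a, ∃ b, T.ρ k (φ a) = φ b) :
    ∃ (M : Subgroup Γ) (T' : TA ↥M ι' E'), K ≤ M ∧ (∀ (m : M) a, φ (T'.ρ m a) = T.ρ m (φ a)) ∧
      ∀ u : SU ι' E', ∃ v : SU ι E, μ v = φ (μ u) + (1 - φ 1) ∧ (T'.j u : Γ) = T.j v := by
  classical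
  have hKi : K ≤ inv T φ := fun k hk => ⟨hK k hk, hK k⁻¹ (K.inv_mem hk)⟩
  -- the inner elements
  have hin : ∀ (u : SU ι' E') (a : Matrix ι' ι' E'),
      T.ρ (T.j (emb φ hst hdet u)) (φ a) = φ (μ u * a * star (μ u)) := by
    intro u a
    have h1 : star (φ 1) = φ 1 := by rw [← hst, star_one]
    have e3 : (1 - φ 1) * φ a = 0 := by rw [sub_mul, one_mul, ← map_mul, one_mul, sub_self]
    have e4 : φ (μ u * a) * (1 - φ 1) = 0 := by rw [mul_sub, mul_one, ← map_mul, mul_one, sub_self]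
    rw [T.ρ_j, mt_emb, star_add, star_sub, star_one, h1, ← hst, add_mul, e3, add_zero, ← map_mul, mul_add, e4,
      add_zero, ← map_mul]
  have hji : (T.j.comp (emb φ hst hdet)).range ≤ inv T φ := by
    rintro _ ⟨u, rfl⟩
    refine ⟨fun a => ⟨_, hin u a⟩, fun a => ⟨μ u⁻¹ * a * star (μ u⁻¹), ?_⟩⟩
    rw [← map_inv]
    exact hin u⁻¹ a
  have hM : K ⊔ (T.j.comp (emb φ hst hdet)).range ≤ inv T φ := sup_le hKi hji
  choose f hf using fun (m : ↥(K ⊔ (T.j.comp (emb φ hst hdet)).range)) => (hM m.2).1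
  have hf1 : ∀ (m : ↥(K ⊔ (T.j.comp (emb φ hst hdet)).range)) a b, φ b = T.ρ (m : Γ) (φ a) → f m a = b := fun m a b h => hinj (by rw [h, hf])
  have hf2 : ∀ m a, f m⁻¹ (f m a) = a := fun m a => hf1 _ _ _ (by
    rw [← hf, Subgroup.coe_inv, T.ρ_inv])
  let r : ↥(K ⊔ (T.j.comp (emb φ hst hdet)).range) → RingAut (Matrix ι' ι' E') := fun m =>
    { toFun := f m
      invFun := f m⁻¹
      left_inv := hf2 m
      right_inv := fun a => by
        have := hf2 m⁻¹ a
        rwa [inv_inv] at this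
      map_mul' := fun a b => hf1 _ _ _ (by rw [map_mul, map_mul, map_mul, hf, hf])
      map_add' := fun a b => hf1 _ _ _ (by rw [map_add, map_add, map_add, hf, hf]) }
  have hr : ∀ m a, φ (r m a) = T.ρ (m : Γ) (φ a) := fun m a => (hf m a).symm
  have hr1 : ∀ m : ↥(K ⊔ (T.j.comp (emb φ hst hdet)).range), T.ρ (m : Γ) (φ 1) = φ 1 := by
    intro m
    rw [← hr, map_one]
  refine ⟨K ⊔ (T.j.comp (emb φ hst hdet)).range,
    { ρ := MonoidHom.mk' r (fun m n => RingEquiv.ext fun a => hinj (by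
        rw [hr, Subgroup.coe_mul, T.ρ_mul, RingAut.mul_apply, hr, hr]))
      st := fun m a => hinj (by
        rw [MonoidHom.mk'_apply, hr, hst, T.st, hst, hr])
      j := (T.j.comp (emb φ hst hdet)).codRestrict _ (fun u => le_sup_right (a := K) ⟨u, rfl⟩)
      ρ_j := fun u a => hinj (by
        rw [MonoidHom.mk'_apply, hr]
        exact hin u a)
      conj_j := fun m u v h => Subtype.ext (by
        refine T.conj_j m (emb φ hst hdet u) (emb φ hst hdet v) ?_
        rw [mt_emb, mt_emb, map_add, map_sub, map_one (T.ρ (m : Γ)), hr1, h, MonoidHom.mk'_apply, hr]) }, le_sup_left, hr, ?_⟩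
  intro u
  exact ⟨emb φ hst hdet u, rfl, rfl⟩

end red

section corner

variable {ι : Type} [Fintype ι] [DecidableEq ι] {E : Type} [CommRing E] [StarRing E]

variable (p : ι → Prop) [DecidablePred p]

/-- the block of a set of coordinates -/
def blk (a : Matrix {x // p x} {x // p x} E) : Matrix ι ι E :=
  (fromBlocks a 0 0 (0 : Matrix {x // ¬ p x} {x // ¬ p x} E)).submatrix (Equiv.sumCompl p).symm
    (Equiv.sumCompl p).symm

variable {p}

theorem blk_mul (a b : Matrix {x // p x} {x // p x} E) : blk p (a * b) = blk p a * blk p b := by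
  rw [blk, blk, blk, submatrix_mul_equiv, fromBlocks_multiply]
  simp

theorem blk_add (a b : Matrix {x // p x} {x // p x} E) : blk p (a + b) = blk p a + blk p b := by
  change _ = (fromBlocks a 0 0 (0 : Matrix {x // ¬ p x} {x // ¬ p x} E) + fromBlocks b 0 0 0).submatrix
    (Equiv.sumCompl p).symm (Equiv.sumCompl p).symm
  rw [blk, fromBlocks_add]
  simp

theorem blk_zero : blk p (0 : Matrix {x // p x} {x // p x} E) = 0 := by
  rw [blk, fromBlocks_zero, submatrix_zero]; rfl

theorem blk_star (a : Matrix {x // p x} {x // p x} E) : blk p (star a) = star (blk p a) := by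
  rw [blk, blk, star_eq_conjTranspose, star_eq_conjTranspose, conjTranspose_submatrix, fromBlocks_conjTranspose,
    conjTranspose_zero, conjTranspose_zero, conjTranspose_zero]

theorem blk_sub_eq (b : Matrix ι ι E) (h : dg p * b * dg p = b) : ∃ a, blk p a = b := by
  refine ⟨b.submatrix Subtype.val Subtype.val, ?_⟩
  have h1 : ∀ i j, b i j = (if p i then 1 else 0) * b i j * (if p j then 1 else 0) := by
    intro i j
    conv_lhs => rw [← h]
    rw [dg, mul_diagonal, diagonal_mul]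
  ext i j
  rw [blk, submatrix_apply]
  by_cases hi : p i
  · rw [Equiv.sumCompl_symm_apply_of_pos hi]
    by_cases hj : p j
    · rw [Equiv.sumCompl_symm_apply_of_pos hj, fromBlocks_apply₁₁, submatrix_apply]
    · rw [Equiv.sumCompl_symm_apply_of_neg hj, fromBlocks_apply₁₂, h1, if_neg hj, mul_zero, Matrix.zero_apply]
  · rw [Equiv.sumCompl_symm_apply_of_neg hi]
    by_cases hj : p j
    · rw [Equiv.sumCompl_symm_apply_of_pos hj, fromBlocks_apply₂₁, h1, if_neg hi, zero_mul, zero_mul, Matrix.zero_apply]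
    · rw [Equiv.sumCompl_symm_apply_of_neg hj, fromBlocks_apply₂₂, h1, if_neg hj, mul_zero, Matrix.zero_apply]

theorem blk_one : blk p (1 : Matrix {x // p x} {x // p x} E) = dg p := by
  ext i j
  rw [blk, submatrix_apply, dg]
  by_cases hi : p i
  · rw [Equiv.sumCompl_symm_apply_of_pos hi]
    by_cases hj : p j
    · rw [Equiv.sumCompl_symm_apply_of_pos hj, fromBlocks_apply₁₁, one_apply, diagonal_apply, if_pos hi]
      simp only [Subtype.mk.injEq]
    · rw [Equiv.sumCompl_symm_apply_of_neg hj, fromBlocks_apply₁₂, Matrix.zero_apply, diagonal_apply_ne]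
      rintro rfl
      exact hj hi
  · rw [Equiv.sumCompl_symm_apply_of_neg hi, diagonal_apply, if_neg hi, ite_self]
    by_cases hj : p j
    · rw [Equiv.sumCompl_symm_apply_of_pos hj, fromBlocks_apply₂₁, Matrix.zero_apply]
    · rw [Equiv.sumCompl_symm_apply_of_neg hj, fromBlocks_apply₂₂, Matrix.zero_apply]

theorem blk_det (a : Matrix {x // p x} {x // p x} E) : (blk p a + (1 - blk p 1)).det = a.det := by
  have h1 : (1 : Matrix ι ι E) = (fromBlocks 1 0 0 (1 : Matrix {x // ¬ p x} {x // ¬ p x} E)).submatrix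
      (Equiv.sumCompl p).symm (Equiv.sumCompl p).symm := by
    rw [fromBlocks_one, submatrix_one_equiv]
  rw [h1]
  change ((fromBlocks a 0 0 (0 : Matrix {x // ¬ p x} {x // ¬ p x} E) + (fromBlocks 1 0 0 1 -
    fromBlocks 1 0 0 0)).submatrix (Equiv.sumCompl p).symm (Equiv.sumCompl p).symm).det = _
  rw [det_submatrix_equiv_self, sub_eq_add_neg, fromBlocks_neg, fromBlocks_add, fromBlocks_add]
  simp

theorem blk_mulVec (a : Matrix {x // p x} {x // p x} E) (v : ι → E) :
    blk p a *ᵥ v = v ↔ (a *ᵥ (fun x => v x.1) = fun x => v x.1) ∧ ∀ x, ¬ p x → v x = 0 := by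
  have h1 : ∀ x (hx : p x), (blk p a *ᵥ v) x = (a *ᵥ (fun x => v x.1)) ⟨x, hx⟩ := by
    intro x hx
    rw [mulVec, mulVec, dotProduct, dotProduct, ← (Equiv.sumCompl p).sum_comp, Fintype.sum_sum_type]
    simp only [blk, submatrix_apply, Equiv.symm_apply_apply, Equiv.sumCompl_symm_apply_of_pos hx, fromBlocks_apply₁₁,
      fromBlocks_apply₁₂, Matrix.zero_apply, zero_mul, Finset.sum_const_zero, add_zero]
    simp only [Equiv.sumCompl_apply_inl]
  have h2 : ∀ x (hx : ¬ p x), (blk p a *ᵥ v) x = 0 := by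
    intro x hx
    rw [mulVec, dotProduct, ← (Equiv.sumCompl p).sum_comp, Fintype.sum_sum_type]
    simp only [blk, submatrix_apply, Equiv.symm_apply_apply, Equiv.sumCompl_symm_apply_of_neg hx, fromBlocks_apply₂₁,
      fromBlocks_apply₂₂, Matrix.zero_apply, zero_mul, Finset.sum_const_zero, add_zero]
  constructor
  · intro h
    refine ⟨funext fun x => ?_, fun x hx => ?_⟩
    · rw [← h1 x.1 x.2, h]
    · rw [← h, h2 x hx]
  · rintro ⟨h3, h4⟩
    funext x
    by_cases hx : p x
    · rw [h1 x hx, h3]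
    · rw [h2 x hx, h4 x hx]

/-- the corner embedding -/
def cor (u : SU ι E) : Matrix {x // p x} {x // p x} E →ₙ+* Matrix ι ι E where
  toFun a := star (μ u) * blk p a * μ u
  map_mul' a b := by
    rw [blk_mul]
    calc star (μ u) * (blk p a * blk p b) * μ u = star (μ u) * (blk p a * (1 * blk p b)) * μ u := by rw [one_mul]
      _ = _ := by rw [← mt_mul_star u]; simp only [mul_assoc]
  map_zero' := by rw [blk_zero, mul_zero, zero_mul]
  map_add' a b := by rw [blk_add, mul_add, add_mul]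

theorem cor_apply (u : SU ι E) (a : Matrix {x // p x} {x // p x} E) :
    cor u a = star (μ u) * blk p a * μ u := rfl

theorem cor_card (u : SU ι E) (a : Matrix {x // p x} {x // p x} E) :
    Nat.card {v : ι → E // cor u a *ᵥ v = v} = Nat.card {v : {x // p x} → E // a *ᵥ v = v} := by
  have e1 : ∀ v : ι → E, cor u a *ᵥ v = v ↔ blk p a *ᵥ (μ u *ᵥ v) = μ u *ᵥ v := by
    intro v
    constructor
    · intro h
      have h1 := congrArg (fun w => μ u *ᵥ w) h
      simp only [cor_apply, mulVec_mulVec] at h1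
      rw [← mul_assoc, ← mul_assoc, mt_mul_star, one_mul, ← mulVec_mulVec] at h1
      exact h1
    · intro h
      rw [cor_apply, ← mulVec_mulVec, ← mulVec_mulVec, h, mulVec_mulVec, star_mt_mul, one_mulVec]
  refine Nat.card_congr ⟨fun v => ⟨fun x => (μ u *ᵥ v.1) x.1, ((blk_mulVec a _).1 ((e1 _).1 v.2)).1⟩,
    fun w => ⟨star (μ u) *ᵥ (fun x => if h : p x then w.1 ⟨x, h⟩ else 0), ?_⟩, ?_, ?_⟩
  · have e2 : ∀ f : ι → E, μ u *ᵥ (star (μ u) *ᵥ f) = f := fun f => by
      rw [mulVec_mulVec, mt_mul_star, one_mulVec]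
    rw [e1, e2, blk_mulVec]
    have h1 : (fun x : {x // p x} => (fun x => if h : p x then w.1 ⟨x, h⟩ else 0) x.1) = w.1 := by
      funext x
      exact dif_pos x.2
    rw [h1]
    exact ⟨w.2, fun x hx => dif_neg hx⟩
  · intro v
    apply Subtype.ext
    have h1 := ((blk_mulVec a _).1 ((e1 _).1 v.2)).2
    have h2 : (fun x => if h : p x then (μ u *ᵥ v.1) x else 0) = μ u *ᵥ v.1 := by
      funext x
      by_cases hx : p x
      · rw [dif_pos hx]
      · rw [dif_neg hx, h1 x hx]
    change star (μ u) *ᵥ (fun x => if h : p x then (μ u *ᵥ v.1) x else 0) = v.1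
    rw [h2, mulVec_mulVec, star_mt_mul, one_mulVec]
  · intro w
    apply Subtype.ext
    funext x
    change (μ u *ᵥ (star (μ u) *ᵥ (fun x => if h : p x then w.1 ⟨x, h⟩ else 0))) x.1 = w.1 x
    rw [mulVec_mulVec, mt_mul_star, one_mulVec]
    exact dif_pos x.2

theorem blk_injective : Function.Injective (blk p : Matrix {x // p x} {x // p x} E → Matrix ι ι E) := by
  intro a b h
  ext i j
  have h3 := congrFun (congrFun h i.1) j.1
  rwa [blk, blk, submatrix_apply, submatrix_apply, Equiv.sumCompl_symm_apply_of_pos i.2,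
      Equiv.sumCompl_symm_apply_of_pos j.2, fromBlocks_apply₁₁, fromBlocks_apply₁₁] at h3

theorem conj_cancel (u : SU ι E) (a : Matrix ι ι E) : μ u * (star (μ u) * a * μ u) * star (μ u) = a := by
  rw [mul_assoc (star (μ u)), ← mul_assoc (μ u), mt_mul_star, one_mul, mul_assoc, mt_mul_star, mul_one]

theorem conj_cancel' (u : SU ι E) (a : Matrix ι ι E) : star (μ u) * (μ u * a * star (μ u)) * μ u = a := by
  rw [mul_assoc (μ u), ← mul_assoc (star (μ u)), star_mt_mul, one_mul, mul_assoc, star_mt_mul, mul_one]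

theorem cor_injective (u : SU ι E) : Function.Injective (cor (p := p) u) := by
  intro a b hab
  apply blk_injective
  rw [cor_apply, cor_apply] at hab
  rw [← conj_cancel u (blk p a), hab, conj_cancel]

theorem cor_star (u : SU ι E) (a : Matrix {x // p x} {x // p x} E) : cor u (star a) = star (cor u a) := by
  rw [cor_apply, cor_apply, blk_star, star_mul, star_mul, star_star, mul_assoc]

theorem cor_one (u : SU ι E) : cor (p := p) u 1 = star (μ u) * dg p * μ u := by
  rw [cor_apply, blk_one]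

theorem cor_range (u : SU ι E) (b : Matrix ι ι E)
    (hb : (star (μ u) * dg p * μ u) * b * (star (μ u) * dg p * μ u) = b) :
    ∃ a : Matrix {x // p x} {x // p x} E, b = cor u a := by
  obtain ⟨a, ha⟩ := blk_sub_eq (p := p) (μ u * b * star (μ u)) (by
    conv_rhs => rw [← hb]
    simp only [mul_assoc]
    rw [mt_mul_star, mul_one, ← mul_assoc (μ u) (star (μ u)), mt_mul_star, one_mul])
  refine ⟨a, ?_⟩
  rw [cor_apply, ha, conj_cancel']

theorem cor_det (u : SU ι E) (w : SU {x // p x} E) : (cor u (μ w) + (1 - cor (p := p) u 1)).det = 1 := by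
  have e1 : cor u (μ w) + (1 - cor (p := p) u 1) = star (μ u) * (blk p (μ w) + (1 - blk p 1)) * μ u := by
    rw [cor_apply, cor_apply, mul_add, mul_sub, add_mul, sub_mul, mul_one, star_mt_mul]
  have e2 : (star (μ u)).det = 1 := by rw [← mt_inv, mt_det]
  rw [e1, det_mul, det_mul, e2, mt_det, blk_det, mt_det, one_mul, one_mul]

theorem cor_rk (u : SU ι E) (a : Matrix {x // p x} {x // p x} E) : rk (cor u a) = rk a := by
  rw [rk, rk, cor_card]

theorem rk_one (h : Gd E) : rk (1 : Matrix ι ι E) = Fintype.card ι := by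
  have h1 := h.finite
  have h2 := h.nontrivial
  have h3 : Nat.card {v : ι → E // (1 : Matrix ι ι E) *ᵥ v = v} = Nat.card E ^ Fintype.card ι := by
    rw [Nat.card_congr (Equiv.subtypeUnivEquiv fun v => one_mulVec v), Nat.card_fun, Nat.card_eq_fintype_card (α := ι)]
  rw [rk, h3, Nat.log_pow Finite.one_lt_card]

theorem exists_corner_of {Γ : Type u} [Group Γ] (h : Gd E) (T : TA Γ ι E) {K : Subgroup Γ} {e : Matrix ι ι E}
    (hK : ∀ k ∈ K, T.ρ k e = e) (w : SU ι E) (p : ι → Prop) [DecidablePred p] (hp : star (μ w) * dg p * μ w = e) :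
    ∃ (ι' : Type) (_ : Fintype ι') (_ : DecidableEq ι') (φ : Matrix ι' ι' E →ₙ+* Matrix ι ι E) (M : Subgroup Γ)
      (T' : TA ↥M ι' E), Function.Injective φ ∧ (∀ a, φ (star a) = star (φ a)) ∧ φ 1 = e ∧
        Fintype.card ι' = rk e ∧ (∀ a, IsP a → rk (φ a) = rk a) ∧ K ≤ M ∧
        (∀ (m : M) a, φ (T'.ρ m a) = T.ρ m (φ a)) ∧
        ∀ u : SU ι' E, ∃ v : SU ι E, μ v = φ (μ u) + (1 - φ 1) ∧ (T'.j u : Γ) = T.j v := by
  have h1 : cor (p := p) w 1 = e := by rw [cor_one, hp]
  obtain ⟨M, T', h4, h5, h6⟩ := exists_red T (K := K) (cor (p := p) w) (cor_injective w) (cor_star w) (cor_det w) (by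
    intro k hk a
    apply cor_range
    have e1 : e * cor w a * e = cor w a := by
      rw [← h1, ← map_mul, ← map_mul, one_mul, mul_one]
    rw [hp]
    calc e * T.ρ k (cor w a) * e = T.ρ k e * T.ρ k (cor w a) * T.ρ k e := by rw [hK k hk]
      _ = _ := by rw [← map_mul, ← map_mul, e1])
  refine ⟨{x // p x}, inferInstance, inferInstance, cor (p := p) w, M, T', cor_injective w, cor_star w, h1, ?_,
    fun a _ => cor_rk w a, h4, h5, h6⟩
  rw [← h1, cor_rk, rk_one h]

/-- **[CA13] (b)** -/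
theorem exists_corner {Γ : Type u} [Group Γ] (h : Gd E) (hON : ONSt E) (T : TA Γ ι E) {K : Subgroup Γ}
    {e : Matrix ι ι E} (he : IsP e) (hK : ∀ k ∈ K, T.ρ k e = e) :
    ∃ (ι' : Type) (_ : Fintype ι') (_ : DecidableEq ι') (φ : Matrix ι' ι' E →ₙ+* Matrix ι ι E) (M : Subgroup Γ)
      (T' : TA ↥M ι' E), Function.Injective φ ∧ (∀ a, φ (star a) = star (φ a)) ∧ φ 1 = e ∧
        Fintype.card ι' = rk e ∧ (∀ a, IsP a → rk (φ a) = rk a) ∧ K ≤ M ∧
        (∀ (m : M) a, φ (T'.ρ m a) = T.ρ m (φ a)) ∧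
        ∀ u : SU ι' E, ∃ v : SU ι E, μ v = φ (μ u) + (1 - φ 1) ∧ (T'.j u : Γ) = T.j v := by
  have he1 : IsP (1 - e) := ⟨by
    rw [mul_sub, mul_one, sub_mul, one_mul, he.idem, sub_self, sub_zero], by rw [star_sub, star_one, he.sym]⟩
  have he2 : e * (1 - e) = 0 := by rw [mul_sub, mul_one, he.idem, sub_self]
  have he3 : (1 - e) * e = 0 := by rw [sub_mul, one_mul, he.idem, sub_self]
  obtain ⟨u, c, hc⟩ := hON ι Bool (fun b => if b then e else 1 - e) (by
    intro b
    cases b
    · exact he1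
    · exact he) (by
    intro b b' hb
    cases b <;> cases b'
    · exact absurd rfl hb
    · exact he3
    · exact he2
    · exact absurd rfl hb) (by
    rw [Fintype.sum_bool]
    change e + (1 - e) = 1
    rw [add_sub_cancel])
  have hc1 := (hc true).symm
  rw [if_pos rfl] at hc1
  exact exists_corner_of h T hK u _ hc1

end corner

end Cfsg.Agent.H35.CA
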